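import Cfsg.Agent.H139.HT.Const
import Cfsg.Agent.H279.Dl.Two

/-!
# The hypothesis `hX` of the trace lemma (helper501, S4933, unitary primes)

`R χ = Ind_Q (α · χ ∘ ρ)`, `ρ : Q → G'` onto, `π` the permutation character of a transitive `G'`-set, `P₁` the stabiliser in
`Q` of a point.  If `⟨R χ₁, R χ₂⟩ = 2 δ` for the constituents of `π`, and `⟨π, χ⟩ = 1`, then every constituent `X` of `R χ`
satisfies `⟨X|P₁, α|P₁⟩ = 1`.
-/

set_option autoImplicit false

open scoped ComplexConjugate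
open Cfsg

namespace Cfsg.Agent.H501.HT

open Cfsg.Agent.OddOrderCharacters.Clifford Cfsg.Agent.Characters MulAction Module

universe u v w

section abs

/-- the sum of a class function weighted by the number of fixed points -/
theorem sum_fix {H : Type*} [Group H] [Fintype H] {Y : Type*} [MulAction H Y] [Finite Y]
    (htr : ∀ y y' : Y, ∃ g : H, g • y = y') (y₀ : Y) {f : H → ℂ} (hf : IsClassFunction H f)
    [Fintype (stabilizer H y₀)] :
    ∑ x : H, f x * (Nat.card {y : Y // x • y = y} : ℂ) = (Nat.card Y : ℂ) * ∑ x : stabilizer H y₀, f x := by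
  classical
  let _ : Fintype Y := Fintype.ofFinite Y
  have h1 : ∀ x : H, f x * (Nat.card {y : Y // x • y = y} : ℂ) = ∑ y : Y, if x • y = y then f x else 0 := by
    intro x
    rw [Nat.card_eq_fintype_card, Fintype.card_subtype, Finset.sum_ite, Finset.sum_const_zero, add_zero, Finset.sum_const,
      nsmul_eq_mul, mul_comm]
  rw [Finset.sum_congr rfl fun x _ => h1 x, Finset.sum_comm]
  have h2 : ∀ y : Y, ∑ x : H, (if x • y = y then f x else 0) = ∑ x : stabilizer H y₀, f x := by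
    intro y
    obtain ⟨g, rfl⟩ := htr y₀ y
    rw [← Equiv.sum_comp (MulAut.conj g).toEquiv]
    have h3 : ∀ x : H, (if (MulAut.conj g).toEquiv x • g • y₀ = g • y₀ then f ((MulAut.conj g).toEquiv x) else 0) =
        if x • y₀ = y₀ then f x else 0 := by
      intro x
      change (if (g * x * g⁻¹) • g • y₀ = g • y₀ then f (g * x * g⁻¹) else 0) = _
      have h4 : ((g * x * g⁻¹) • g • y₀ = g • y₀) ↔ x • y₀ = y₀ := by
        rw [mul_smul, mul_smul, inv_smul_smul, smul_left_cancel_iff]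
      have h5 : f (g * x * g⁻¹) = f x := hf x g
      simp only [h4, h5]
    rw [Finset.sum_congr rfl fun x _ => h3 x, sum_eq_sum_subgroup (stabilizer H y₀)
      (fun x => if x • y₀ = y₀ then f x else 0) (fun x hx => if_neg hx)]
    exact Finset.sum_congr rfl fun x _ => if_pos x.2
  rw [Finset.sum_congr rfl fun y _ => h2 y, Finset.sum_const, Finset.card_univ, nsmul_eq_mul, Nat.card_eq_fintype_card]

/-- characters with a common constituent are not orthogonal -/
theorem inner_ne_zero {G : Type*} [Group G] [Fintype G] {A B : G → ℂ} (hA : IsCharacter G A) (hB : IsCharacter G B)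
    (X : IrrCharacter G) (h1 : classInner (X : G → ℂ) A ≠ 0) (h2 : classInner (X : G → ℂ) B ≠ 0) :
    classInner A B ≠ 0 := by
  classical
  have hX := Core.isIrr_isCharacter X.2
  have h3 : classInner A (X : G → ℂ) ≠ 0 := by
    intro h
    apply h1
    rw [← Core.classInner_conj_symm, h, map_zero]
  have h4 := isCharacter_sub_irr hA X.2 h3
  obtain ⟨a, ha⟩ := Core.classInner_isNat h4 hB
  obtain ⟨b, hb⟩ := Core.classInner_isNat hX hB
  have h5 : classInner A B = ((a + b : ℕ) : ℂ) := by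
    have e : A = (A - (X : G → ℂ)) + (X : G → ℂ) := by rw [sub_add_cancel]
    rw [e, Core.classInner_add_left, ha, hb]
    push_cast
    rfl
  rw [h5]
  intro h
  have h6 : a + b = 0 := by exact_mod_cast h
  apply h2
  rw [hb, show b = 0 by omega, Nat.cast_zero]

/-- a constituent of a character of norm two has multiplicity one -/
theorem mult_one {G : Type*} [Group G] [Fintype G] {A : G → ℂ} (hA : IsCharacter G A) (h2 : classInner A A = 2)
    (X : IrrCharacter G) (h1 : classInner (X : G → ℂ) A ≠ 0) : classInner (X : G → ℂ) A = 1 := by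
  classical
  have hfin := Core.finite_irr (G := G)
  let _ : Fintype (IrrCharacter G) := Fintype.ofFinite _
  obtain ⟨m, hm⟩ := Core.isCharacter_iff.1 hA
  have hm' : A = ∑ ψ : IrrCharacter G, ((m ψ : ℂ)) • (ψ : G → ℂ) := by
    rw [hm]
    exact Finset.sum_congr rfl fun ψ _ => (Nat.cast_smul_eq_nsmul ℂ _ _).symm
  have h3 : ∑ ψ : IrrCharacter G, m ψ * m ψ = 2 := by
    have h4 : ((∑ ψ : IrrCharacter G, m ψ * m ψ : ℕ) : ℂ) = 2 := by
      rw [← h2, hm', Core.classInner_sum_smul_sum_smul]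
      push_cast
      refine Finset.sum_congr rfl fun ψ _ => ?_
      rw [Complex.conj_natCast]
    exact_mod_cast h4
  have h5 : classInner (X : G → ℂ) A = m X := by
    rw [← Core.classInner_conj_symm, hm', Core.classInner_sum_smul_irr, Complex.conj_natCast]
  have h6 : m X * m X ≤ 2 := by
    rw [← h3]
    exact Finset.single_le_sum (f := fun ψ => m ψ * m ψ) (fun ψ _ => Nat.zero_le _) (Finset.mem_univ X)
  have h7 : m X ≠ 0 := by
    intro h
    apply h1
    rw [h5, h, Nat.cast_zero]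
  have h8 : m X = 1 := by nlinarith [Nat.pos_of_ne_zero h7]
  rw [h5, h8, Nat.cast_one]

/-- **the abstract form** -/
theorem hX_abs {G : Type u} [Group G] [Fintype G] {G' : Type v} [Group G'] [Fintype G'] (Q P₁ : Subgroup G) [Fintype Q]
    [Fintype P₁] (h1Q : P₁ ≤ Q) (ρ : Q →* G') (hρ : Function.Surjective ρ) {Y : Type w} [MulAction G' Y] [Finite Y]
    (htr : ∀ y y' : Y, ∃ g : G', g • y = y') (y₀ : Y) (hP : ∀ g : Q, ρ g • y₀ = y₀ ↔ (g : G) ∈ P₁)
    {α : Q → ℂ} (hα : IsClassFunction Q α) (R : IrrCharacter G' → G → ℂ) (hRc : ∀ χ, IsCharacter G (R χ))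
    (hR : ∀ (X : IrrCharacter G) (χ : IrrCharacter G'), classInner (X : G → ℂ) (R χ) =
      classInner (fun g : Q => (X : G → ℂ) g) (fun g => α g * (χ : G' → ℂ) (ρ g)))
    (hN : ∀ χ₁ χ₂ : IrrCharacter G', classInner (fun g => (Nat.card {y : Y // g • y = y} : ℂ)) (χ₁ : G' → ℂ) ≠ 0 →
      classInner (fun g => (Nat.card {y : Y // g • y = y} : ℂ)) (χ₂ : G' → ℂ) ≠ 0 →
      classInner (R χ₁) (R χ₂) = if χ₁ = χ₂ then 2 else 0)
    (χ : IrrCharacter G') (hχ : classInner (fun g => (Nat.card {y : Y // g • y = y} : ℂ)) (χ : G' → ℂ) = 1)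
    (X : IrrCharacter G)
    (hX : classInner (fun g : Q => (X : G → ℂ) g) (fun g => α g * (χ : G' → ℂ) (ρ g)) ≠ 0) :
    classInner (fun g : P₁ => (X : G → ℂ) g) (fun g => α ⟨g, h1Q g.2⟩) = 1 := by
  classical
  have hfin := Core.finite_irr (G := G')
  let _ : Fintype (IrrCharacter G') := Fintype.ofFinite _
  set π : G' → ℂ := fun g => (Nat.card {y : Y // g • y = y} : ℂ) with hπ
  have hπc : IsCharacter G' π := by
    let _ : Fintype Y := Fintype.ofFinite Y
    exact S0157.isCharacter_fixedBy Y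
  have hπcl := Core.isCharacter_isClassFunction hπc
  have hXcl : IsClassFunction G (X : G → ℂ) := Core.isIrr_isClassFunction X.2
  -- the action of `Q`
  let _ : MulAction Q Y := MulAction.compHom Y ρ
  have hact : ∀ (g : Q) (y : Y), g • y = ρ g • y := fun g y => rfl
  have htr' : ∀ y y' : Y, ∃ g : Q, g • y = y' := by
    intro y y'
    obtain ⟨g, hg⟩ := htr y y'
    obtain ⟨x, rfl⟩ := hρ g
    exact ⟨x, hg⟩
  let f : Q → ℂ := fun g => (X : G → ℂ) g * conj (α g)
  have hf : IsClassFunction Q f := by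
    intro g x
    change (X : G → ℂ) ((x * g * x⁻¹ : Q) : G) * conj (α (x * g * x⁻¹)) = _
    rw [hα g x]
    congr 1
    exact hXcl g x
  have e1 := sum_fix htr' y₀ hf
  have hcard : Nat.card Q = Nat.card Y * Nat.card (stabilizer Q y₀) := by
    have h1 : Nat.card (orbit Q y₀) = Nat.card Y := by
      refine Nat.card_congr (Equiv.subtypeUnivEquiv fun y => ?_)
      obtain ⟨g, hg⟩ := htr' y₀ y
      exact ⟨g, hg⟩
    rw [← h1, ← Nat.card_prod]
    exact Nat.card_congr (orbitProdStabilizerEquivGroup Q y₀).symm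
  -- the stabiliser is `P₁`
  let e : stabilizer Q y₀ ≃ P₁ :=
    { toFun := fun g => ⟨((g : Q) : G), (hP g.1).1 g.2⟩
      invFun := fun g => ⟨⟨g, h1Q g.2⟩, (hP ⟨g, h1Q g.2⟩).2 g.2⟩
      left_inv := fun g => rfl
      right_inv := fun g => rfl }
  have e2 : ∑ x : stabilizer Q y₀, f x = ∑ x : P₁, (X : G → ℂ) x * conj (α ⟨x, h1Q x.2⟩) :=
    Fintype.sum_equiv e _ _ fun x => rfl
  have hcard' : Nat.card (stabilizer Q y₀) = Nat.card P₁ := Nat.card_congr e
  have hY0 : (Nat.card Y : ℂ) ≠ 0 := by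
    have : Nonempty Y := ⟨y₀⟩
    exact_mod_cast Nat.card_pos.ne'
  have hP0 : (Nat.card P₁ : ℂ) ≠ 0 := Core.card_ne_zero_complex
  have e3 : classInner (fun g : P₁ => (X : G → ℂ) g) (fun g => α ⟨g, h1Q g.2⟩) =
      classInner (fun g : Q => (X : G → ℂ) g) (fun g => α g * π (ρ g)) := by
    rw [Core.classInner_def, Core.classInner_def, hcard, hcard', ← e2]
    have e4 : ∑ g : Q, (X : G → ℂ) g * conj (α g * π (ρ g)) =
        ∑ x : Q, f x * (Nat.card {y : Y // x • y = y} : ℂ) := by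
      refine Finset.sum_congr rfl fun g _ => ?_
      have e5 : conj (π (ρ g)) = (Nat.card {y : Y // g • y = y} : ℂ) := Complex.conj_natCast _
      rw [map_mul, e5]
      ring
    rw [e4, e1]
    push_cast
    field_simp
  -- the decomposition of `π`
  have e6 : (fun g : Q => α g * π (ρ g)) = ∑ χ' : IrrCharacter G', classInner π (χ' : G' → ℂ) •
      (fun g : Q => α g * (χ' : G' → ℂ) (ρ g)) := by
    funext g
    have h1 := congrFun (Core.classFunction_eq_sum hπcl) (ρ g)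
    rw [h1, Finset.sum_apply, Finset.sum_apply, Finset.mul_sum]
    refine Finset.sum_congr rfl fun χ' _ => ?_
    rw [Pi.smul_apply, Pi.smul_apply, smul_eq_mul, smul_eq_mul]
    ring
  rw [e3, e6, Core.classInner_sum_right, Finset.sum_eq_single χ]
  · rw [Core.classInner_smul_right, hχ, map_one, one_mul, ← hR]
    refine mult_one (hRc χ) ?_ X (by rw [hR]; exact hX)
    have h1 : classInner π (χ : G' → ℂ) ≠ 0 := by rw [hχ]; exact one_ne_zero
    rw [hN χ χ h1 h1, if_pos rfl]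
  · intro χ' _ hne
    rw [Core.classInner_smul_right]
    by_cases h0 : classInner π (χ' : G' → ℂ) = 0
    · rw [h0, map_zero, zero_mul]
    · have h1 : classInner π (χ : G' → ℂ) ≠ 0 := by rw [hχ]; exact one_ne_zero
      have h2 := hN χ' χ h0 h1
      rw [if_neg hne] at h2
      have h3 : classInner (X : G → ℂ) (R χ') = 0 := by
        by_contra h4
        exact inner_ne_zero (hRc χ') (hRc χ) X h4 (by rw [hR]; exact hX) h2
      rw [← hR, h3, mul_zero]
  · intro h
    exact absurd (Finset.mem_univ _) h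

end abs

section hc

open Cfsg.Agent.H53.HC Cfsg.Agent.H477.HC Cfsg.Agent.H749.Two Cfsg.Agent.H279.Dl

variable {K : Type u} [Field K] {V : Type v} [AddCommGroup V] [Module K V] {F : CForm K V}
  {X' : Type w} [AddCommGroup X'] [Module K X'] {F' : CForm K X'} {j : X' →ₗ[K] V} {W₀ : Submodule K V}

/-- **Frobenius reciprocity** for `F.hc c ψ` -/
theorem hc_frob [FiniteDimensional K V] [Fintype F.iso] {k : ℕ} [Fintype (F.Om k)]
    {c : GL (Fin k) K → ℂ} (hcf : IsClassFunction _ c) {ψ : F.iso → Submodule K V → ℂ}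
    (hcj : ∀ x g W, ψ (x * g * x⁻¹) (W.map (F.iso.subtype x : V →ₗ[K] V)) = ψ g W) (hW₀ : W₀ ∈ F.Om k)
    [iQ : Fintype (stabW F.iso.subtype W₀)] {χ : F.iso → ℂ} (hχ : IsClassFunction F.iso χ) :
    classInner (F.hc c ψ) χ =
      classInner (fun g : stabW F.iso.subtype W₀ => flagTerm F.iso.subtype c g W₀ * ψ g W₀) (fun g => χ g) := by
  classical
  let _ := subAct F.iso.subtype (F.Om k) F.Om_map
  have := pretrans (F := F) (k := k)
  let φ : F.iso → F.Om k → ℂ := fun g W => flagTerm F.iso.subtype c g W.1 * ψ g W.1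
  have hφ : ∀ (x g : F.iso) (W : F.Om k), φ (x * g * x⁻¹) (x • W) = φ g W := fun x g W =>
    congrArg₂ (· * ·) (flagTerm_conj F.iso.subtype hcf x g W.1) (hcj x g W.1)
  have hst : stabilizer F.iso (⟨W₀, hW₀⟩ : F.Om k) = stabW F.iso.subtype W₀ := by
    ext g
    exact ⟨fun h => congrArg Subtype.val (mem_stabilizer_iff.1 h), fun h => mem_stabilizer_iff.2 (Subtype.ext h)⟩
  have key : ∀ (S : Subgroup F.iso) (_ : S = stabilizer F.iso (⟨W₀, hW₀⟩ : F.Om k)) [Fintype S],
      classInner (indFun (stabilizer F.iso (⟨W₀, hW₀⟩ : F.Om k)) (stabFun φ ⟨W₀, hW₀⟩)) χ =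
        classInner (fun g : S => φ g ⟨W₀, hW₀⟩) (fun g : S => χ g) := by
    rintro _ rfl _
    exact classInner_indFun _ _ _ hχ
  rw [CForm.hc_eq_orbSum F]
  change classInner (orbSum φ) χ = _
  rw [orbSum_eq_indFun _ hφ ⟨W₀, hW₀⟩]
  exact key _ hst.symm

/-- the stabiliser of `W₀ ⊔ j s` -/
theorem stab_iff [FiniteDimensional K V] [FiniteDimensional K X'] (h : Cmp F F' j W₀)
    {ρ : stabW F.iso.subtype W₀ →* F'.iso}
    (hρ1 : ∀ (g : stabW F.iso.subtype W₀) y, ((g : F.iso) : V ≃ₗ[K] V) (j y) - j ((ρ g : X' ≃ₗ[K] X') y) ∈ W₀)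
    (g : stabW F.iso.subtype W₀) (U : Submodule K X') :
    U.map (F'.iso.subtype (ρ g) : X' →ₗ[K] X') = U ↔ (g : F.iso) ∈ stabW F.iso.subtype (W₀ ⊔ U.map j) := by
  have hgW : ∀ w ∈ W₀, ((g : F.iso) : V ≃ₗ[K] V) w ∈ W₀ := by
    intro w hw
    have h1 : W₀.map (F.iso.subtype (g : F.iso) : V →ₗ[K] V) = W₀ := g.2
    have : F.iso.subtype (g : F.iso) w ∈ W₀.map (F.iso.subtype (g : F.iso) : V →ₗ[K] V) := ⟨w, hw, rfl⟩
    rwa [h1] at this
  constructor
  · intro h1
    refine map_eq_of_le F.iso.subtype fun w hw => ?_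
    obtain ⟨a, ha, b, hb, rfl⟩ := Submodule.mem_sup.1 hw
    obtain ⟨y, hy, rfl⟩ := hb
    rw [map_add]
    refine Submodule.add_mem _ (Submodule.mem_sup_left (hgW a ha)) ?_
    have h2 : ((g : F.iso) : V ≃ₗ[K] V) (j y) = (((g : F.iso) : V ≃ₗ[K] V) (j y) - j ((ρ g : X' ≃ₗ[K] X') y)) +
        j ((ρ g : X' ≃ₗ[K] X') y) := by abel
    change ((g : F.iso) : V ≃ₗ[K] V) (j y) ∈ _
    rw [h2]
    refine Submodule.add_mem _ (Submodule.mem_sup_left (hρ1 g y)) (Submodule.mem_sup_right ⟨_, ?_, rfl⟩)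
    rw [← h1]
    exact ⟨y, hy, rfl⟩
  · intro h1
    refine map_eq_of_le F'.iso.subtype fun y hy => ?_
    have h2 : (W₀ ⊔ U.map j).map (F.iso.subtype (g : F.iso) : V →ₗ[K] V) = W₀ ⊔ U.map j := h1
    have h3 : ((g : F.iso) : V ≃ₗ[K] V) (j y) ∈ W₀ ⊔ U.map j := by
      have : F.iso.subtype (g : F.iso) (j y) ∈ (W₀ ⊔ U.map j).map (F.iso.subtype (g : F.iso) : V →ₗ[K] V) :=
        ⟨j y, Submodule.mem_sup_right ⟨y, hy, rfl⟩, rfl⟩
      rwa [h2] at this
    have h4 : j ((ρ g : X' ≃ₗ[K] X') y) ∈ W₀ ⊔ U.map j := by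
      have h5 := Submodule.sub_mem _ h3 (Submodule.mem_sup_left (hρ1 g y))
      rwa [sub_sub_cancel] at h5
    obtain ⟨a, ha, b, hb, hab⟩ := Submodule.mem_sup.1 h4
    obtain ⟨y', hy', rfl⟩ := hb
    obtain ⟨r, -, hr, hr0⟩ := h.exists_proj
    have h6 := congrArg r hab
    rw [map_add, hr0 a ha, zero_add, hr, hr] at h6
    change (ρ g : X' ≃ₗ[K] X') y ∈ U
    rw [← h6]
    exact hy'

/-- **`hX` of the trace lemma**: `P₁` = the stabiliser of `W₀` and of `Lam = W₀ ⊔ j (s y₀)`, `s y₀` maximal totally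
singular -/
theorem hX_hc [Finite K] [FiniteDimensional K V] [Finite V] [FiniteDimensional K X'] [Fintype F.iso] [Fintype F'.iso]
    (h : Cmp F F' j W₀) {b : ℕ} [Fintype (F.Om b)] (hW₀ : W₀ ∈ F.Om b) (c : IrrCharacter (GL (Fin b) K))
    {ρ : stabW F.iso.subtype W₀ →* F'.iso}
    (hρ1 : ∀ (g : stabW F.iso.subtype W₀) y, ((g : F.iso) : V ≃ₗ[K] V) (j y) - j ((ρ g : X' ≃ₗ[K] X') y) ∈ W₀)
    (hρ2 : ∀ g : stabW F.iso.subtype W₀, (g : F.iso) ∈ F.TT W₀ → ρ g = 1) (hρ3 : Function.Surjective ρ)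
    {Y : Type*} [MulAction F'.iso Y] [Finite Y] (htr : ∀ y y' : Y, ∃ g : F'.iso, g • y = y')
    (s : Y → Submodule K X')
    (hs : ∀ (g : F'.iso) y, g • y = y ↔ (s y).map (F'.iso.subtype g : X' →ₗ[K] X') = s y) (y₀ : Y)
    {Lam : Submodule K V} (hLam : Lam = W₀ ⊔ (s y₀).map j)
    (hN : ∀ χ₁ χ₂ : IrrCharacter F'.iso,
      classInner (fun g => (Nat.card {y : Y // g • y = y} : ℂ)) (χ₁ : F'.iso → ℂ) ≠ 0 →
      classInner (fun g => (Nat.card {y : Y // g • y = y} : ℂ)) (χ₂ : F'.iso → ℂ) ≠ 0 →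
      classInner (F.hc (c : GL (Fin b) K → ℂ) (psf F W₀ ((χ₁ : F'.iso → ℂ) ∘ ρ)))
        (F.hc (c : GL (Fin b) K → ℂ) (psf F W₀ ((χ₂ : F'.iso → ℂ) ∘ ρ))) = if χ₁ = χ₂ then 2 else 0)
    (χ : IrrCharacter F'.iso)
    (hχ : classInner (fun g => (Nat.card {y : Y // g • y = y} : ℂ)) (χ : F'.iso → ℂ) = 1)
    [Fintype (stabW F.iso.subtype W₀)] [Fintype ↥(stabW F.iso.subtype W₀ ⊓ stabW F.iso.subtype Lam)]
    (X : IrrCharacter F.iso)
    (hX : classInner (fun x : stabW F.iso.subtype W₀ => (X : F.iso → ℂ) x)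
      (fun x => flagTerm F.iso.subtype (c : GL (Fin b) K → ℂ) x W₀ * (χ : F'.iso → ℂ) (ρ x)) ≠ 0) :
    classInner (fun x : ↥(stabW F.iso.subtype W₀ ⊓ stabW F.iso.subtype Lam) => (X : F.iso → ℂ) x)
      (fun x => flagTerm F.iso.subtype (c : GL (Fin b) K → ℂ) x W₀) = 1 := by
  classical
  subst hLam
  have hcf := Core.isIrr_isClassFunction c.2
  have hpsi : ∀ χ : IrrCharacter F'.iso, IsCharacter (stabW F.iso.subtype W₀) ((χ : F'.iso → ℂ) ∘ ρ) := fun χ =>
    Core.isCharacter_comp ρ (Core.isIrr_isCharacter χ.2)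
  have hPsi : ∀ χ : IrrCharacter F'.iso, Psi F b (psf F W₀ ((χ : F'.iso → ℂ) ∘ ρ)) := fun χ =>
    Psi.psf hW₀ (hpsi χ) (fun g hg => by
      rw [Function.comp_apply, Function.comp_apply, hρ2 g hg, map_one])
  refine hX_abs (stabW F.iso.subtype W₀) (stabW F.iso.subtype W₀ ⊓ stabW F.iso.subtype (W₀ ⊔ (s y₀).map j)) inf_le_left ρ
    hρ3 htr y₀ (fun g => ?_) (α := fun x => flagTerm F.iso.subtype (c : GL (Fin b) K → ℂ) x W₀) ?_
    (fun χ => F.hc (c : GL (Fin b) K → ℂ) (psf F W₀ ((χ : F'.iso → ℂ) ∘ ρ))) (fun χ => hc_chr c.2 (hPsi χ) hW₀)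
    (fun X χ => ?_) hN χ hχ X hX
  · rw [hs, stab_iff h hρ1]
    exact ⟨fun h1 => ⟨g.2, h1⟩, fun h1 => h1.2⟩
  · intro g x
    have h1 := flagTerm_conj F.iso.subtype hcf (x : F.iso) (g : F.iso) W₀
    have h2 : W₀.map (F.iso.subtype (x : F.iso) : V →ₗ[K] V) = W₀ := x.2
    rw [h2] at h1
    exact h1
  · rw [← Core.classInner_conj_symm, hc_frob hcf (hPsi χ).cj hW₀ (Core.isIrr_isClassFunction X.2),
      Core.classInner_conj_symm]
    congr 1
    funext g
    rw [psf_self (Core.isCharacter_isClassFunction (hpsi χ))]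
    rfl

end hc

end Cfsg.Agent.H501.HT
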